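import Cfsg.Agent.H50.Ux.Stmts
import Cfsg.Agent.H450.Bs.Herm
import Cfsg.Agent.H450.UF.Base
import Cfsg.Agent.H440.Bs.Rec

/-!
# UT2 (UX, S5716), task Yc2: Witt's theorem for the special unitary group (helper637)
-/

set_option autoImplicit false

namespace Cfsg.Agent.H637.Ux

open Module Cfsg.Agent.H847.Bs Cfsg.Agent.H50.Ux
open Cfsg.Agent.H91.U (HForm witt_family)
open Cfsg.Agent.H440.Bs (perp mem_perp mem_perp' finrank_perp)
open Cfsg.Agent.H450.UF (det_isom smul_left smul_right sw self_fix)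

section

variable {F V : Type*} [Field F] [AddCommGroup V] [Module F V] {σ : F →+* F} {B : V →ₛₗ[σ] V →ₗ[F] F}

/-- quasi-reflections -/
theorem exists_quasi [FiniteDimensional F V] (hB : HForm B) {u : V} (hu : B u u ≠ 0) {c : F} (hc : c * σ c = 1) :
    ∃ g : V ≃ₗ[F] V, (∀ x y, B (g x) (g y) = B x y) ∧ (∀ x, B u x = 0 → g x = x) ∧
      LinearMap.det (g : V →ₗ[F] V) = c := by
  let T : V →ₗ[F] V := LinearMap.transvection (((c - 1) * (B u u)⁻¹) • B u) u
  have hT : ∀ x, T x = x + ((c - 1) * (B u u)⁻¹ * B u x) • u := fun x => by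
    rw [LinearMap.transvection.apply]; rfl
  have hdet : LinearMap.det T = c := by
    rw [LinearMap.transvection.det, LinearMap.smul_apply, smul_eq_mul, mul_assoc, inv_mul_cancel₀ hu]
    ring
  have hc0 : c ≠ 0 := by
    rintro rfl
    rw [zero_mul] at hc
    exact zero_ne_one hc
  let g : V ≃ₗ[F] V := LinearEquiv.ofIsUnitDet (f := T) (v := Module.finBasis F V) (v' := Module.finBasis F V) (by
    rw [LinearMap.det_toMatrix, hdet]
    exact isUnit_iff_ne_zero.2 hc0)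
  have hg : ∀ x, g x = x + ((c - 1) * (B u u)⁻¹ * B u x) • u := hT
  refine ⟨g, ?_, ?_, hdet⟩
  · intro x y
    have h1 : σ (B u x) = B x u := (sw hB u x).symm
    have h2 : σ (B u u) = B u u := self_fix hB u
    rw [hg, hg]
    simp only [map_add, LinearMap.add_apply, smul_left, smul_right, map_mul, map_sub, map_one, map_inv₀, h1, h2]
    field_simp
    linear_combination (B x u * B u y) * hc
  · intro x hx
    rw [hg, hx, mul_zero, zero_smul, add_zero]

end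

variable {F V D : Type} [Field F] [Finite F] [AddCommGroup V] [Module F V] [Module.Finite F V] [AddCommGroup D]
  [Module F D] [Module.Finite F D]

/-- the special unitary group is transitive on isometric frames with a nonisotropic vector in the orthogonal complement -/
theorem trans_su {r : ℕ} {Φ : Frm F V} (hΦ : IsHerm r Φ) (ψ : D →ₗ[F] V) (hψ : Function.Injective ψ)
    (hn : ¬ perp Φ (LinearMap.range ψ) ≤ LinearMap.range ψ) (χ : D →ₗ[F] V) (hχ : Function.Injective χ)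
    (h : pb Φ χ = pb Φ ψ) : ∃ g ∈ Φ.Iso ⊓ slV F V, ∀ x, g (ψ x) = χ x := by
  have := Fintype.ofFinite F
  have hF : Fintype.card F = r ^ 2 := by rw [← Nat.card_eq_fintype_card]; exact hΦ.card
  have hB := Cfsg.Agent.H450.Bs.hform_toB hF hΦ
  have hBd : ∀ x y, Cfsg.Agent.H450.Bs.toB hF hΦ x y = Φ.B y x := fun _ _ => rfl
  set B := Cfsg.Agent.H450.Bs.toB hF hΦ with hBdef
  let b := Module.finBasis F D
  have li : LinearIndependent F (fun i => ψ (b i)) := b.linearIndependent.map' ψ (LinearMap.ker_eq_bot.2 hψ)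
  have li' : LinearIndependent F (fun i => χ (b i)) := b.linearIndependent.map' χ (LinearMap.ker_eq_bot.2 hχ)
  have hpb : ∀ x y, Φ.B (ψ x) (ψ y) = Φ.B (χ x) (χ y) := by
    intro x y
    have h1 := congrFun (congrFun (congrArg Prod.fst h) x) y
    exact h1.symm
  obtain ⟨g0, hg0, hg0w⟩ := witt_family hB li li' (fun i j => hpb _ _)
  have hg0ψ : ∀ x, g0 (ψ x) = χ x := by
    have h1 : (g0 : V →ₗ[F] V) ∘ₗ ψ = χ := b.ext fun i => hg0w i
    intro x
    exact LinearMap.congr_fun h1 x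
  -- a nonisotropic vector
  obtain ⟨u, hu, huu⟩ : ∃ u ∈ perp Φ (LinearMap.range ψ), B u u ≠ 0 := by
    apply Cfsg.Agent.ClassicalGeometry.HermWitt.exists_apply_self_ne_zero _ B hB.ne_id hB.symm
    by_contra hcon
    push Not at hcon
    apply hn
    have h1 : perp Φ (LinearMap.range ψ) ≤ perp Φ (perp Φ (LinearMap.range ψ)) := by
      intro x hx
      rw [mem_perp]
      intro y hy
      exact hcon y hy x hx
    have h2 : LinearMap.range ψ = perp Φ (perp Φ (LinearMap.range ψ)) := by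
      apply Submodule.eq_of_le_of_finrank_eq
      · intro x hx
        rw [mem_perp]
        intro y hy
        exact Φ.refl _ _ ((mem_perp Φ).1 hy x hx)
      · have h3 := finrank_perp Φ hΦ.nd (LinearMap.range ψ)
        have h4 := finrank_perp Φ hΦ.nd (perp Φ (LinearMap.range ψ))
        omega
    rw [← h2] at h1
    exact h1
  have hdet := det_isom hB hg0
  have hd0 : LinearMap.det (g0 : V →ₗ[F] V) ≠ 0 := by
    intro h0
    rw [h0, zero_mul] at hdet
    exact zero_ne_one hdet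
  obtain ⟨s, hs, hsf, hsd⟩ := exists_quasi hB huu (c := (LinearMap.det (g0 : V →ₗ[F] V))⁻¹) (by
    rw [map_inv₀, ← mul_inv, hdet, inv_one])
  refine ⟨g0 * s, ⟨?_, ?_⟩, ?_⟩
  · show g0 * s ∈ Φ.Iso
    rw [Cfsg.Agent.H450.Bs.iso_iff hF hΦ]
    intro x y
    show B (g0 (s x)) (g0 (s y)) = B x y
    rw [hg0, hs]
  · show LinearMap.det ((g0 : V →ₗ[F] V) ∘ₗ (s : V →ₗ[F] V)) = 1
    rw [LinearMap.det_comp, hsd, mul_inv_cancel₀ hd0]
  · intro x
    show g0 (s (ψ x)) = χ x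
    rw [hsf, hg0ψ]
    rw [hBd]
    exact (mem_perp' Φ).1 hu _ (LinearMap.mem_range_self ψ x)

omit [Module.Finite F D] in
/-- transitivity gives `Wc 1` -/
theorem wc_one {Φ : Frm F V} {G : Subgroup (V ≃ₗ[F] V)} {ψ : D →ₗ[F] V}
    (htr : ∀ χ : D →ₗ[F] V, Function.Injective χ → pb Φ χ = pb Φ ψ → ∃ g ∈ G, ∀ x, g (ψ x) = χ x) : Wc 1 Φ G ψ := by
  intro ψ'
  have hV : Finite V := Module.finite_of_finite F
  have hG : Finite (V ≃ₗ[F] V) := Cfsg.Agent.H440.Bs.finite_lin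
  rw [one_mul]
  by_cases hne : ∃ g ∈ G, ∀ x, g (ψ x) = ψ' x
  · obtain ⟨g1, hg1, hg1ψ⟩ := hne
    rw [← Nat.card_prod]
    choose t ht htψ using htr
    let f : {χ : D →ₗ[F] V // Function.Injective χ ∧ pb Φ χ = pb Φ ψ} ×
        {g : V ≃ₗ[F] V // g ∈ G ∧ ∀ x, g (ψ x) = ψ' x} → G := fun p =>
      ⟨t p.1.1 p.1.2.1 p.1.2.2 * (g1⁻¹ * p.2.1), G.mul_mem (ht _ _ _) (G.mul_mem (G.inv_mem hg1) p.2.2.1)⟩
    have hf : ∀ p x, (f p : V ≃ₗ[F] V) (ψ x) = p.1.1 x := by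
      intro p x
      show t p.1.1 p.1.2.1 p.1.2.2 (g1⁻¹ (p.2.1 (ψ x))) = _
      rw [p.2.2.2, ← hg1ψ]
      have h1 : g1⁻¹ (g1 (ψ x)) = ψ x := g1.symm_apply_apply _
      rw [h1, htψ]
    refine Nat.card_le_card_of_injective f ?_
    rintro ⟨⟨χ, hχ⟩, ⟨g, hg⟩⟩ ⟨⟨χ', hχ'⟩, ⟨g', hg'⟩⟩ heq
    have h1 : χ = χ' := by
      ext x
      rw [← hf ⟨⟨χ, hχ⟩, ⟨g, hg⟩⟩ x, heq, hf]
    subst h1
    have h2 : t χ hχ.1 hχ.2 * (g1⁻¹ * g) = t χ hχ.1 hχ.2 * (g1⁻¹ * g') := congrArg Subtype.val heq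
    have h3 := mul_left_cancel (mul_left_cancel h2)
    subst h3
    rfl
  · have : IsEmpty {g : V ≃ₗ[F] V // g ∈ G ∧ ∀ x, g (ψ x) = ψ' x} := ⟨fun g => hne ⟨g.1, g.2.1, g.2.2⟩⟩
    rw [Nat.card_of_isEmpty (α := {g : V ≃ₗ[F] V // g ∈ G ∧ ∀ x, g (ψ x) = ψ' x}), mul_zero]
    exact Nat.zero_le _

/-- Yc2 -/
theorem yc2 : Yc2 := by
  intro F V D _ _ _ _ _ _ _ _ r Φ hΦ ψ hψ hn
  exact wc_one fun χ hχ h => trans_su hΦ ψ hψ hn χ hχ h

end Cfsg.Agent.H637.Ux
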