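import Cfsg.Agent.H637.Ux.WittSU
import Cfsg.Agent.H91.Symp
import Cfsg.Agent.ClassicalGeometry.WittQuad

/-!
# UT2 (UX, S5716), tasks Yc1, Yc3: Witt's theorem for the symplectic and orthogonal groups (helper637)
-/

set_option autoImplicit false

namespace Cfsg.Agent.H637.Ux

open Module Cfsg.Agent.H847.Bs Cfsg.Agent.H50.Ux Cfsg.Agent.LieClassical.OrthCore

variable {F V D : Type} [Field F] [Finite F] [AddCommGroup V] [Module F V] [Module.Finite F V] [AddCommGroup D]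
  [Module F D] [Module.Finite F D]

omit [Finite F] in
theorem trans_sp {Φ : Frm F V} (hΦ : IsSp Φ) (ψ : D →ₗ[F] V) (hψ : Function.Injective ψ)
    (χ : D →ₗ[F] V) (hχ : Function.Injective χ) (h : pb Φ χ = pb Φ ψ) : ∃ g ∈ Φ.Iso, ∀ x, g (ψ x) = χ x := by
  let B : LinearMap.BilinForm F V := LinearMap.mk₂ F Φ.B Φ.add_left Φ.smul_left Φ.add_right
    (fun c x y => by rw [Φ.smul_right, hΦ.s, smul_eq_mul])
  have hB : Cfsg.Agent.H91.Symp.SForm B :=
    { nd := ⟨fun x hx => hΦ.nd x hx, fun x hx => hΦ.nd x fun y => Φ.refl _ _ (hx y)⟩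
      alt := hΦ.alt }
  let b := Module.finBasis F D
  have li : LinearIndependent F (fun i => ψ (b i)) := b.linearIndependent.map' ψ (LinearMap.ker_eq_bot.2 hψ)
  have li' : LinearIndependent F (fun i => χ (b i)) := b.linearIndependent.map' χ (LinearMap.ker_eq_bot.2 hχ)
  have hpb : ∀ x y, Φ.B (ψ x) (ψ y) = Φ.B (χ x) (χ y) := by
    intro x y
    have h1 := congrFun (congrFun (congrArg Prod.fst h) x) y
    exact h1.symm
  obtain ⟨g0, hg0, hg0w⟩ := Cfsg.Agent.H91.Symp.witt_family hB li li' (fun i j => hpb _ _)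
  refine ⟨g0, ⟨fun x y => hg0 x y, fun x => by rw [hΦ.q, hΦ.q]⟩, ?_⟩
  have h1 : (g0 : V →ₗ[F] V) ∘ₗ ψ = χ := b.ext fun i => hg0w i
  exact fun x => LinearMap.congr_fun h1 x

/-- Yc1 -/
theorem yc1 : Yc1 := by
  intro F V D _ _ _ _ _ _ _ _ Φ hΦ ψ hψ
  exact wc_one fun χ hχ h => trans_sp hΦ ψ hψ χ hχ h

omit [Finite F] in
theorem trans_o {Q : QuadraticForm F V} (hQ : (frmQ Q).Nd) (ψ : D →ₗ[F] V) (hψ : Function.Injective ψ)
    (χ : D →ₗ[F] V) (hχ : Function.Injective χ) (h : pb (frmQ Q) χ = pb (frmQ Q) ψ) :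
    ∃ g ∈ O Q, ∀ x, g (ψ x) = χ x := by
  have hnd : (QuadraticMap.polarBilin Q).Nondegenerate := by
    refine ⟨fun x hx => hQ x hx, fun x hx => hQ x fun y => ?_⟩
    show QuadraticMap.polar Q x y = 0
    rw [QuadraticMap.polar_comm]
    exact hx y
  let b := Module.finBasis F D
  have li : LinearIndependent F (fun i => ψ (b i)) := b.linearIndependent.map' ψ (LinearMap.ker_eq_bot.2 hψ)
  have li' : LinearIndependent F (fun i => χ (b i)) := b.linearIndependent.map' χ (LinearMap.ker_eq_bot.2 hχ)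
  have hpb : ∀ x y, QuadraticMap.polar Q (ψ x) (ψ y) = QuadraticMap.polar Q (χ x) (χ y) := by
    intro x y
    have h1 := congrFun (congrFun (congrArg Prod.fst h) x) y
    exact h1.symm
  have hq : ∀ x, Q (ψ x) = Q (χ x) := by
    intro x
    have h1 := congrFun (congrArg Prod.snd h) x
    exact h1.symm
  obtain ⟨g0, hg0, hg0w⟩ := Cfsg.Agent.ClassicalGeometry.WittQuad.extend_family Q hnd _ _ _ li li' (fun i => hq _)
    (fun i j => hpb _ _)
  refine ⟨g0, hg0, ?_⟩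
  have h1 : (g0 : V →ₗ[F] V) ∘ₗ ψ = χ := b.ext fun i => hg0w i
  exact fun x => LinearMap.congr_fun h1 x

/-- Yc3 -/
theorem yc3 (h4 : Yc4) : Yc3 := by
  intro F V D _ _ _ _ _ _ _ _ Q hQ hd ψ hψ ψ'
  have hV : Finite V := Module.finite_of_finite F
  have hG : Finite (V ≃ₗ[F] V) := Cfsg.Agent.H440.Bs.finite_lin
  have h1 : Wc 1 (frmQ Q) (O Q) ψ := wc_one fun χ hχ h => trans_o hQ ψ hψ χ hχ h
  have h2 := h1 ψ'
  have h3 := h4 F V Q hQ hd
  have h5 : Nat.card {g : V ≃ₗ[F] V // g ∈ E Q ∧ ∀ x, g (ψ x) = ψ' x} ≤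
      Nat.card {g : V ≃ₗ[F] V // g ∈ O Q ∧ ∀ x, g (ψ x) = ψ' x} :=
    Nat.card_le_card_of_injective (fun g => ⟨g.1, E_le_O g.2.1, g.2.2⟩) fun a b hab =>
      Subtype.ext (congrArg (fun z => z.1) hab)
  calc _ ≤ Nat.card {χ : D →ₗ[F] V // Function.Injective χ ∧ pb (frmQ Q) χ = pb (frmQ Q) ψ} *
        Nat.card {g : V ≃ₗ[F] V // g ∈ O Q ∧ ∀ x, g (ψ x) = ψ' x} := Nat.mul_le_mul_left _ h5
    _ ≤ 1 * Nat.card (O Q) := h2
    _ ≤ 4 * Nat.card (E Q) := by rw [one_mul]; exact h3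

end Cfsg.Agent.H637.Ux
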