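import Cfsg.Agent.H141.Ux.Stmts

/-!
# UX (S5716), task UK1: the group generated by `z` and `x z' x⁻¹` is irreducible on `E + x (A + A')` (helper637)
-/

set_option autoImplicit false

namespace Cfsg.Agent.H637.Ux

open Module Cfsg.Agent.H847.Bs Cfsg.Agent.H141.Ux
open Cfsg.Agent.H440.Bs (perp mem_perp dec_perp exists_add mem_perp')

variable {F V : Type*} [Field F] [AddCommGroup V] [Module F V]

/-- the stabiliser of a subspace -/
def stb [FiniteDimensional F V] (Y : Submodule F V) : Subgroup (V ≃ₗ[F] V) where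
  carrier := {g | Inv g Y}
  mul_mem' := fun hg hk => Cfsg.Agent.H440.Bs.Inv.mul hg hk
  one_mem' := fun _ hv => hv
  inv_mem' := fun hg => Cfsg.Agent.H440.Bs.Inv.inv hg

theorem inv_zpowers [FiniteDimensional F V] {y z : V ≃ₗ[F] V} {Y : Submodule F V} (hy : Inv y Y)
    (hz : z ∈ Subgroup.zpowers y) : Inv z Y :=
  (Subgroup.zpowers_le.2 (show y ∈ stb Y from hy)) hz

/-- an invariant subspace contains the components of its elements in a block without fixed points -/
theorem comp_mem [FiniteDimensional F V] {D U Y : Submodule F V} {g : V ≃ₗ[F] V} (hD : Inv g D)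
    (hU : ∀ u ∈ U, g u = u) (hf : ∀ v ∈ D, g v = v → v = 0) (hY : Inv g Y) {a u : V} (ha : a ∈ D) (hu : u ∈ U)
    (h : a + u ∈ Y) : a ∈ Y := by
  have hM : ∀ v ∈ Y ⊓ D, ((g : V →ₗ[F] V) - (LinearMap.id : V →ₗ[F] V)) v ∈ Y ⊓ D := by
    intro v hv
    exact ⟨Y.sub_mem (hY v hv.1) hv.1, D.sub_mem (hD v hv.2) hv.2⟩
  set T : (Y ⊓ D : Submodule F V) →ₗ[F] (Y ⊓ D : Submodule F V) :=
    ((g : V →ₗ[F] V) - (LinearMap.id : V →ₗ[F] V)).restrict hM with hT
  have hinj : Function.Injective T := by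
    rw [← LinearMap.ker_eq_bot, LinearMap.ker_eq_bot']
    intro m hm
    have h1 : g (m : V) - m = 0 := congrArg Subtype.val hm
    exact Subtype.ext (hf m m.2.2 (sub_eq_zero.1 h1))
  have hsur : Function.Surjective T := LinearMap.surjective_of_injective hinj
  have h1 : g a - a ∈ Y ⊓ D := by
    refine ⟨?_, D.sub_mem (hD a ha) ha⟩
    have h2 : g (a + u) - (a + u) ∈ Y := Y.sub_mem (hY _ h) h
    rw [map_add, hU u hu] at h2
    have h3 : g a + u - (a + u) = g a - a := by abel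
    rwa [h3] at h2
  obtain ⟨m, hm⟩ := hsur ⟨g a - a, h1⟩
  have h2 : g (m : V) - m = g a - a := congrArg Subtype.val hm
  have h3 : (m : V) - a = 0 := by
    apply hf _ (D.sub_mem m.2.2 ha)
    rw [map_sub]
    have : g (m : V) - g a - ((m : V) - a) = (g (m : V) - m) - (g a - a) := by abel
    rw [← sub_eq_zero, this, h2, sub_self]
  rw [← sub_eq_zero.1 h3]
  exact m.2.1

/-- the invariant subspaces of `A ⊕ A'`, `A`, `A'` irreducible and not isomorphic -/
theorem sub_cases {A A' N : Submodule F V} {z : V ≃ₗ[F] V} (hA : Inv z A) (hA' : Inv z A')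
    (irr : ∀ W ≤ A, Inv z W → W = ⊥ ∨ W = A) (irr' : ∀ W ≤ A', Inv z W → W = ⊥ ∨ W = A')
    (hom : ∀ φ : A →ₗ[F] A', (∀ (a : A) (h : z a ∈ A), ((φ ⟨z a, h⟩ : A') : V) = z (φ a)) → φ = 0)
    (hN : Inv z N) (hle : N ≤ A ⊔ A') : N = ⊥ ∨ A ≤ N ∨ A' ≤ N := by
  by_cases h1 : A ≤ N
  · exact Or.inr (Or.inl h1)
  by_cases h2 : A' ≤ N
  · exact Or.inr (Or.inr h2)
  left
  have hNA' : N ⊓ A' = ⊥ := by
    rcases irr' (N ⊓ A') inf_le_right (fun v hv => ⟨hN v hv.1, hA' v hv.2⟩) with h | h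
    · exact h
    · exact absurd (h ▸ inf_le_left) h2
  have hPi : Inv z (A ⊓ (N ⊔ A')) := by
    rintro v ⟨hv1, hv2⟩
    refine ⟨hA v hv1, ?_⟩
    obtain ⟨n, hn, a', ha', rfl⟩ := Submodule.mem_sup.1 hv2
    rw [map_add]
    exact Submodule.add_mem_sup (hN n hn) (hA' a' ha')
  rcases irr _ inf_le_left hPi with hP | hP
  · rw [eq_bot_iff]
    intro n hn
    obtain ⟨a, ha, a', ha', rfl⟩ := Submodule.mem_sup.1 (hle hn)
    have h3 : a ∈ A ⊓ (N ⊔ A') := by
      refine ⟨ha, ?_⟩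
      have h4 : a = (a + a') + -a' := by abel
      rw [h4]
      exact Submodule.add_mem_sup hn (A'.neg_mem ha')
    rw [hP, Submodule.mem_bot] at h3
    subst h3
    rw [zero_add] at hn ⊢
    rw [← hNA']
    exact ⟨hn, ha'⟩
  · exfalso
    have hex : ∀ a : A, ∃ a' : A', (a : V) + a' ∈ N := by
      intro a
      have h3 : (a : V) ∈ A ⊓ (N ⊔ A') := by rw [hP]; exact a.2
      obtain ⟨n, hn, a', ha', h4⟩ := Submodule.mem_sup.1 h3.2
      refine ⟨⟨-a', A'.neg_mem ha'⟩, ?_⟩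
      show (a : V) + -a' ∈ N
      rw [← h4]
      have h5 : n + a' + -a' = n := by abel
      rwa [h5]
    choose f hf using hex
    have huniq : ∀ (a : A) (b : A'), (a : V) + b ∈ N → b = f a := by
      intro a b hb
      have h3 : (b : V) - f a ∈ N ⊓ A' := by
        refine ⟨?_, A'.sub_mem b.2 (f a).2⟩
        have h4 := N.sub_mem hb (hf a)
        have h5 : (a : V) + b - (a + f a) = b - f a := by abel
        rwa [h5] at h4
      rw [hNA', Submodule.mem_bot, sub_eq_zero] at h3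
      exact Subtype.ext h3
    let φ : A →ₗ[F] A' :=
      { toFun := f
        map_add' := by
          intro a b
          symm
          apply huniq
          have h3 := N.add_mem (hf a) (hf b)
          have h4 : ((a + b : A) : V) + ((f a + f b : A') : V) = (a + f a) + (b + f b) := by
            rw [Submodule.coe_add, Submodule.coe_add]; abel
          rwa [h4]
        map_smul' := by
          intro c a
          symm
          apply huniq
          have h3 := N.smul_mem c (hf a)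
          have h4 : ((c • a : A) : V) + ((c • f a : A') : V) = c • ((a : V) + f a) := by
            rw [Submodule.coe_smul, Submodule.coe_smul, smul_add]
          rwa [RingHom.id_apply, h4] }
    have hφ : φ = 0 := by
      apply hom
      intro a ha
      have h3 : (z a : V) + z (f a) ∈ N := by
        rw [← map_add]
        exact hN _ (hf a)
      have h4 := huniq ⟨z a, ha⟩ ⟨z (f a), hA' _ (f a).2⟩ h3
      show ((f ⟨z a, ha⟩ : A') : V) = z (f a)
      rw [← h4]
    apply h1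
    intro a ha
    have h3 := hf ⟨a, ha⟩
    have h4 : f ⟨a, ha⟩ = 0 := by
      show φ ⟨a, ha⟩ = 0
      rw [hφ]
      rfl
    rw [h4] at h3
    simpa using h3

/-- an invariant subspace containing `A` properly contains `A'` -/
theorem sub_top {A A' N : Submodule F V} {z : V ≃ₗ[F] V} (hA' : Inv z A')
    (irr' : ∀ W ≤ A', Inv z W → W = ⊥ ∨ W = A') (hN : Inv z N) (hle : N ≤ A ⊔ A') (h : A ≤ N) (hn : ¬ N ≤ A) :
    A ⊔ A' ≤ N := by
  rcases irr' (N ⊓ A') inf_le_right (fun v hv => ⟨hN v hv.1, hA' v hv.2⟩) with h1 | h1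
  · exfalso
    apply hn
    intro n hn'
    obtain ⟨a, ha, a', ha', rfl⟩ := Submodule.mem_sup.1 (hle hn')
    have h2 : a' ∈ N ⊓ A' := by
      refine ⟨?_, ha'⟩
      have h3 := N.sub_mem hn' (h ha)
      have h4 : a + a' - a = a' := by abel
      rwa [h4] at h3
    rw [h1, Submodule.mem_bot] at h2
    rw [h2, add_zero]
    exact ha
  · exact sup_le h (h1 ▸ inf_le_left)

/-- UK1 -/
theorem uk1 : UK1 := by
  intro F V _ _ _ _ _ Φ e d hnd x hx y hy E A A' z z' hE hA gp Y hYW hz hz1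
  have hinvx : ∀ v, x (x⁻¹ v) = v := fun v => x.apply_symm_apply v
  have hinvx' : ∀ v, x⁻¹ (x v) = v := fun v => x.symm_apply_apply v
  -- the preimage of `Y`
  obtain ⟨Y0, hY0⟩ : ∃ Y0 : Submodule F V, ∀ v, v ∈ Y0 ↔ x v ∈ Y :=
    ⟨Y.comap (x : V →ₗ[F] V), fun v => Iff.rfl⟩
  have hY0i : Inv z' Y0 := by
    intro v hv
    rw [hY0] at hv ⊢
    have h1 := hz1 _ hv
    have h2 : (x * z' * x⁻¹) (x v) = x (z' v) := by
      show x (z' (x⁻¹ (x v))) = _
      rw [hinvx']
    rwa [h2] at h1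
  have hEi : Inv z E := inv_zpowers hE.inv hE.mem
  have hAi : Inv z' A := inv_zpowers hA.inv hA.mem
  have hAi' : Inv z' A' := inv_zpowers hA.inv' hA.mem
  have hDi : Inv z' (A ⊔ A') := by
    intro v hv
    obtain ⟨a, ha, a', ha', rfl⟩ := Submodule.mem_sup.1 hv
    rw [map_add]
    exact Submodule.add_mem_sup (hAi a ha) (hAi' a' ha')
  have hdE := dec_perp Φ hnd hE.nd
  have hdD := dec_perp Φ hnd hA.nd
  have hNi : Inv z' (Y0 ⊓ (A ⊔ A')) := fun v hv => ⟨hY0i v hv.1, hDi v hv.2⟩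
  have hcases := sub_cases hAi hAi' hA.irr hA.irr' hA.hom hNi inf_le_right
  rcases hE.irr (Y ⊓ E) inf_le_right (fun v hv => ⟨hz v hv.1, hEi v hv.2⟩) with h | h
  · -- `Y ∩ E = 0`
    left
    have hYE : ∀ v ∈ Y, v ∈ perp Φ E := by
      intro v hv
      obtain ⟨a, ha, u, hu, rfl⟩ := exists_add hdE.compl v
      have h1 : a ∈ Y := comp_mem hEi hE.fix hE.fpf hz ha hu hv
      have h2 : a ∈ Y ⊓ E := ⟨h1, ha⟩
      rw [h, Submodule.mem_bot] at h2
      rw [h2, zero_add]
      exact hu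
    have hN : Y0 ⊓ (A ⊔ A') = ⊥ := by
      rcases hcases with h1 | h1 | h1
      · exact h1
      · exfalso
        obtain ⟨a, ha, b, hb, hab⟩ := gp.a
        exact hab ((mem_perp Φ).1 (hYE _ ((hY0 a).1 (h1 ha).1)) b hb)
      · exfalso
        obtain ⟨a, ha, b, hb, hab⟩ := gp.a'
        exact hab ((mem_perp Φ).1 (hYE _ ((hY0 a).1 (h1 ha).1)) b hb)
    have hYD : ∀ v ∈ Y0, v ∈ perp Φ (A ⊔ A') := by
      intro v hv
      obtain ⟨a, ha, u, hu, rfl⟩ := exists_add hdD.compl v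
      have h1 : a ∈ Y0 := comp_mem hDi hA.fix hA.fpf hY0i ha hu hv
      have h2 : a ∈ Y0 ⊓ (A ⊔ A') := ⟨h1, ha⟩
      rw [hN, Submodule.mem_bot] at h2
      rw [h2, zero_add]
      exact hu
    rw [eq_bot_iff]
    intro v hv
    rw [Submodule.mem_bot]
    apply gp.nd v (hYW hv)
    intro w hw
    obtain ⟨b, hb, c, hc, rfl⟩ := Submodule.mem_sup.1 hw
    obtain ⟨c0, hc0, rfl⟩ := hc
    rw [Φ.add_right, (mem_perp Φ).1 (hYE v hv) b hb, zero_add]
    have h1 : x⁻¹ v ∈ Y0 := by rw [hY0, hinvx]; exact hv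
    have h2 := (mem_perp Φ).1 (hYD _ h1) c0 hc0
    rw [← hx.1, hinvx] at h2
    exact h2
  · -- `E ≤ Y`
    right
    have hEY : E ≤ Y := h ▸ inf_le_left
    -- components of elements of `E`
    have hcomp : ∀ a ∈ A ⊔ A', ∀ b ∈ E, Φ.B (x a) b ≠ 0 → ∃ c ∈ Y0 ⊓ (A ⊔ A'), Φ.B a c ≠ 0 := by
      intro a ha b hb hab
      obtain ⟨c, hc, u, hu, hcu⟩ := exists_add hdD.compl (x⁻¹ b)
      have h1 : c + u ∈ Y0 := by
        rw [← hcu, hY0, hinvx]
        exact hEY hb
      have h2 : c ∈ Y0 := comp_mem hDi hA.fix hA.fpf hY0i hc hu h1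
      refine ⟨c, ⟨h2, hc⟩, ?_⟩
      intro h3
      apply hab
      have h4 : Φ.B a (x⁻¹ b) = 0 := by
        rw [hcu, Φ.add_right, h3, zero_add]
        exact (mem_perp' Φ).1 hu a ha
      rw [← hx.1, hinvx] at h4
      exact h4
    have hnA : ¬ Y0 ⊓ (A ⊔ A') ≤ A := by
      intro hle
      obtain ⟨a, ha, b, hb, hab⟩ := gp.a
      obtain ⟨c, hc, hac⟩ := hcomp a (le_sup_left (a := A) (b := A') ha) b hb hab
      exact hac (hA.ti.1 a ha c (hle hc))
    have hnA' : ¬ Y0 ⊓ (A ⊔ A') ≤ A' := by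
      intro hle
      obtain ⟨a, ha, b, hb, hab⟩ := gp.a'
      obtain ⟨c, hc, hac⟩ := hcomp a (le_sup_right (a := A) (b := A') ha) b hb hab
      exact hac (hA.ti'.1 a ha c (hle hc))
    have hfull : A ⊔ A' ≤ Y0 ⊓ (A ⊔ A') := by
      rcases hcases with h1 | h1 | h1
      · exact absurd (h1 ▸ bot_le) hnA
      · exact sub_top hAi' hA.irr' hNi inf_le_right h1 hnA
      · have h2 := sub_top (A := A') (A' := A) hAi hA.irr hNi (by rw [sup_comm]; exact inf_le_right) h1 hnA'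
        rwa [sup_comm] at h2
    apply le_antisymm hYW
    apply sup_le hEY
    rintro _ ⟨v, hv, rfl⟩
    exact (hY0 v).1 (hfull hv).1

end Cfsg.Agent.H637.Ux
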